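import Mathlib
import Cfsg.Prelude.Def_LieExceptional
import Cfsg.Agent.Lib.Helper1.Hall
import Cfsg.Agent.Lib.Helper1.Nilp
import Cfsg.Agent.Lib.Helper8.Components
import Cfsg.Agent.Lib.Helper4.Basic
import Cfsg.Agent.Lib.Helper20.Fitting

set_option autoImplicit false

namespace Cfsg.Agent.Lib.Helper9

open Cfsg.Agent.Lib.Helper1
open scoped commutatorElement

universe u

variable {G : Type u} [Group G]

theorem isNilpotent_of_injective' {A B : Type*} [Group A] [Group B] (f : A →* B) (hf : Function.Injective f)
    (hB : Group.IsNilpotent B) : Group.IsNilpotent A := by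
  apply Subgroup.isNilpotent_of_ker_le_center f
  intro a ha
  have h0 : f a = f 1 := by rw [map_one]; exact ha
  rw [hf h0]
  exact Subgroup.one_mem _

theorem isNilpotent_of_le' {A B : Subgroup G} (h : A ≤ B) (hB : Group.IsNilpotent B) : Group.IsNilpotent A :=
  isNilpotent_of_injective' (Subgroup.inclusion h) (Subgroup.inclusion_injective h) hB

theorem isNilpotent_map' {G' : Type*} [Group G'] (f : G →* G') {A : Subgroup G} (hA : Group.IsNilpotent A) :
    Group.IsNilpotent (A.map f) :=
  Group.nilpotent_of_surjective (f.subgroupMap A) (f.subgroupMap_surjective A)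

/-- in a nilpotent subgroup, a `p`-element commutes with every `p'`-element -/
theorem commute_of_nilpotent [Finite G] {p : ℕ} [Fact p.Prime] {T : Subgroup G} (hT : Group.IsNilpotent T)
    {z y : G} (hz : z ∈ T) (hy : y ∈ T) (hzp : IsPGroup p (Subgroup.zpowers z))
    (hyp : (orderOf y).Coprime p) : y * z = z * y := by
  let P : Sylow p T := default
  have hPn : (P : Subgroup T).Normal := inferInstance
  set P' := (P : Subgroup T).map T.subtype with hP'
  have hP'T : P' ≤ T := Subgroup.map_subtype_le _
  have hP'p : IsPGroup p P' := P.2.map _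
  have hzP : z ∈ P' := by
    have h1 : IsPGroup p ((Subgroup.zpowers z).subgroupOf T) := hzp.comap_subtype
    obtain ⟨Q, hQ⟩ := h1.exists_le_sylow
    have hQP : Q = P := by
      have := Sylow.unique_of_normal P hPn
      exact Subsingleton.elim _ _
    rw [hQP] at hQ
    exact ⟨⟨z, hz⟩, hQ (show (⟨z, hz⟩ : T).1 ∈ Subgroup.zpowers z from Subgroup.mem_zpowers z), rfl⟩
  set Y := Subgroup.zpowers y with hY
  have hYT : Y ≤ T := by rw [hY, Subgroup.zpowers_le]; exact hy
  have hTn : T ≤ Subgroup.normalizer (P' : Set G) := by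
    rw [← Subgroup.normal_subgroupOf_iff_le_normalizer hP'T]
    have : P'.subgroupOf T = P := Subgroup.comap_map_eq_self_of_injective T.subtype_injective _
    rw [this]; exact hPn
  have hcop : (Nat.card Y).Coprime (Nat.card P') := by
    obtain ⟨k, hk⟩ := IsPGroup.iff_card.mp hP'p
    rw [hk, hY, Nat.card_zpowers]
    exact Nat.Coprime.pow_right k hyp
  have hsol : Group.IsSolvable Y ∨ Group.IsSolvable P' := Or.inr (solvable_of_isPGroup hP'p)
  have hstab := coprime_commutator_stable Y P' (hYT.trans hTn) hcop hsol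
  have hU : ⁅P', Y⁆ = ⊥ := by
    apply eq_bot_of_le_commutator hT
    · exact (commutator_le_of_le_normalizer (hYT.trans hTn)).trans hP'T
    · calc ⁅P', Y⁆ = ⁅⁅P', Y⁆, Y⁆ := hstab.symm
        _ ≤ ⁅⁅P', Y⁆, T⁆ := Subgroup.commutator_mono le_rfl hYT
  rw [Subgroup.commutator_eq_bot_iff_le_centralizer] at hU
  have h1 := hU hzP
  rw [Subgroup.mem_centralizer_iff] at h1
  exact h1 y (Subgroup.mem_zpowers y)

/-- a subgroup `C` containing a Sylow `s`-subgroup of `L` for every prime `s` contains `L`. -/
theorem le_of_forall_sylow_le [Finite G] {L C : Subgroup G}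
    (h : ∀ (s : ℕ) [Fact s.Prime], ∃ S : Sylow s L, (S : Subgroup L).map L.subtype ≤ C) : L ≤ C := by
  rw [← Subgroup.subgroupOf_eq_top, ← Subgroup.index_eq_one, Nat.eq_one_iff_not_exists_prime_dvd]
  intro s hs hdvd
  have := Fact.mk hs
  obtain ⟨S, hS⟩ := h s
  have hle : (S : Subgroup L) ≤ C.subgroupOf L := by
    intro x hx
    exact hS ⟨x, hx, rfl⟩
  exact S.not_dvd_index (hdvd.trans (Subgroup.index_dvd_of_le hle))

theorem cn_quot_pgroup [Finite G] (hCN : Cfsg.IsCNGroup G) {p : ℕ} [Fact p.Prime] (N : Subgroup G) [hN : N.Normal]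
    (hNp : IsPGroup p N) (hNne : N ≠ ⊥) : Cfsg.IsCNGroup (G ⧸ N) := by
  have hp : p.Prime := Fact.out
  intro xbar hxbar
  obtain ⟨x, rfl⟩ := QuotientGroup.mk'_surjective N xbar
  have hxN : x ∉ N := fun h => hxbar ((QuotientGroup.eq_one_iff x).mpr h)
  set π := QuotientGroup.mk' N with hπ
  have hπN : ∀ n ∈ N, π n = 1 := fun n hn => (QuotientGroup.eq_one_iff n).mpr hn
  have hkey : ∃ w : G, w ≠ 1 ∧ Subgroup.centralizer ({π x} : Set (G ⧸ N)) ≤
      (Subgroup.centralizer ({w} : Set G)).map π := by
    obtain ⟨a, m, hpm, hord⟩ := Nat.exists_eq_pow_mul_and_not_dvd (orderOf_pos x).ne' p hp.ne_one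
    obtain ⟨j, hj⟩ := IsPGroup.iff_card.mp hNp
    have hnormN : ∀ B : Subgroup G, B ≤ Subgroup.normalizer (N : Set G) := by
      intro B
      rw [Subgroup.normalizer_eq_top_iff.mpr hN]; exact le_top
    by_cases hm : m = 1
    · -- `x` is a `p`-element
      have hxp : x ^ p ^ a = 1 := by
        rw [hm, mul_one] at hord
        rw [← hord]; exact pow_orderOf_eq_one x
      set L := (Subgroup.centralizer ({π x} : Set (G ⧸ N))).comap π with hL
      have hmemL : ∀ g, g ∈ L ↔ π x * π g = π g * π x := by
        intro g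
        rw [hL, Subgroup.mem_comap, Subgroup.mem_centralizer_singleton_iff]
        exact eq_comm
      have hNL : N ≤ L := by
        intro n hn
        rw [hmemL, hπN n hn, mul_one, one_mul]
      have hxL : x ∈ L := by rw [hmemL]
      set P₀ := N ⊔ Subgroup.zpowers x with hP₀
      have hP₀L : P₀ ≤ L := sup_le hNL (by rw [Subgroup.zpowers_le]; exact hxL)
      have hzx : IsPGroup p (Subgroup.zpowers x) := by
        apply IsPGroup.of_card (n := a)
        rw [Nat.card_zpowers, hord, hm, mul_one]
      have hP₀p : IsPGroup p P₀ := hNp.to_sup_of_normal_left hzx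
      -- the image of `P₀` is generated by the image of `x`
      have hP₀π : ∀ w ∈ P₀, ∀ g ∈ L, π w * π g = π g * π w := by
        intro w hw g hg
        obtain ⟨n, hn, y, hy, rfl⟩ := Subgroup.mem_sup_of_normal_left.mp hw
        obtain ⟨i, rfl⟩ := Subgroup.mem_zpowers_iff.mp hy
        rw [map_mul, hπN n hn, one_mul, map_zpow]
        exact ((show Commute (π x) (π g) from (hmemL g).mp hg).zpow_left i)
      have hcommN : ∀ w ∈ P₀, ∀ g ∈ L, g * w * g⁻¹ * w⁻¹ ∈ N := by
        intro w hw g hg
        rw [← QuotientGroup.eq_one_iff]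
        show π (g * w * g⁻¹ * w⁻¹) = 1
        rw [map_mul, map_mul, map_mul, map_inv, map_inv, ← hP₀π w hw g hg]
        group
      have hLP₀ : L ≤ Subgroup.normalizer (P₀ : Set G) := by
        intro g hg
        apply Cfsg.Agent.Lib.Helper8.mem_normalizer_of_conj_mem
        intro w hw
        have h1 : g * w * g⁻¹ = (g * w * g⁻¹ * w⁻¹) * w := by group
        rw [h1]
        exact P₀.mul_mem ((le_sup_left : N ≤ P₀) (hcommN w hw g hg)) hw
      obtain ⟨S, hS⟩ := (hP₀p.comap_subtype (K := L)).exists_le_sylow
      set S' := (S : Subgroup L).map L.subtype with hS'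
      have hP₀S : P₀ ≤ S' := by
        intro w hw
        exact ⟨⟨w, hP₀L hw⟩, hS hw, rfl⟩
      have hS'p : IsPGroup p S' := S.2.map _
      -- a central element of `S'` in `N`
      obtain ⟨z, hzN, hzS, hz1⟩ : ∃ z ∈ N, (∀ s ∈ S', s * z = z * s) ∧ z ≠ 1 := by
        have hnil : Group.IsNilpotent S' := hS'p.isNilpotent
        have hnorm : (N.subgroupOf S').Normal := inferInstance
        have hne : N.subgroupOf S' ≠ ⊥ := by
          intro hb
          apply hNne
          rw [Subgroup.subgroupOf_eq_bot] at hb
          rw [eq_bot_iff, ← hb.eq_bot]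
          exact le_inf le_rfl (le_sup_left.trans hP₀S)
        obtain ⟨z, hz, hzc, hz1⟩ := Cfsg.Agent.Lib.Helper20.normal_inf_center_ne_bot (N.subgroupOf S') hne
        refine ⟨z.1, hz, ?_, fun h => hz1 (Subtype.ext h)⟩
        intro s hs
        rw [Subgroup.mem_center_iff] at hzc
        exact congrArg Subtype.val (hzc ⟨s, hs⟩)
      have hzp : IsPGroup p (Subgroup.zpowers z) :=
        hNp.to_le (by rw [Subgroup.zpowers_le]; exact hzN)
      -- `p'`-elements of `L` commute with `z`
      have hy : ∀ y ∈ L, (orderOf y).Coprime p → y * z = z * y := by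
        intro y hyL hyp
        set Y := Subgroup.zpowers y with hY
        have hYL : Y ≤ L := by rw [hY, Subgroup.zpowers_le]; exact hyL
        have hcop : (Nat.card Y).Coprime (Nat.card P₀) := by
          obtain ⟨k, hk⟩ := IsPGroup.iff_card.mp hP₀p
          rw [hk, hY, Nat.card_zpowers]
          exact Nat.Coprime.pow_right k hyp
        have hdec := coprime_commutator_sup_centralizer Y P₀ (hYL.trans hLP₀) hcop
          (Or.inr (solvable_of_isPGroup hP₀p))
        have hcN : ⁅P₀, Y⁆ ≤ N := by
          rw [Subgroup.commutator_le]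
          intro w hw g hg
          have h1 := hcommN w hw g (hYL hg)
          have h2 : ⁅w, g⁆ = (g * w * g⁻¹ * w⁻¹)⁻¹ := by
            rw [commutatorElement_def]; group
          rw [h2]
          exact N.inv_mem h1
        obtain ⟨x', hx'1, hx'2⟩ : ∃ x' ∈ P₀ ⊓ Subgroup.centralizer (Y : Set G), x' ∉ N := by
          by_contra hcon
          push Not at hcon
          apply hxN
          have h1 : P₀ ≤ N := by
            rw [← hdec]
            exact sup_le hcN hcon
          exact h1 ((le_sup_right : Subgroup.zpowers x ≤ P₀) (Subgroup.mem_zpowers x))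
        obtain ⟨hx'P, hx'C⟩ := Subgroup.mem_inf.mp hx'1
        have hx'ne : x' ≠ 1 := fun h => hx'2 (h ▸ N.one_mem)
        have hnil := hCN x' hx'ne
        refine commute_of_nilpotent hnil ?_ ?_ hzp hyp
        · rw [Subgroup.mem_centralizer_singleton_iff]
          exact (hzS x' (hP₀S hx'P)).symm
        · rw [Subgroup.mem_centralizer_singleton_iff]
          rw [Subgroup.mem_centralizer_iff] at hx'C
          exact hx'C y (Subgroup.mem_zpowers y)
      refine ⟨z, hz1, ?_⟩
      have hLz : L ≤ Subgroup.centralizer ({z} : Set G) := by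
        apply le_of_forall_sylow_le
        intro s hs
        by_cases hsp : s = p
        · subst hsp
          refine ⟨S, ?_⟩
          intro w hw
          rw [Subgroup.mem_centralizer_singleton_iff]
          exact hzS w hw
        · let T : Sylow s L := default
          refine ⟨T, ?_⟩
          rintro _ ⟨w, hw, rfl⟩
          rw [Subgroup.mem_centralizer_singleton_iff]
          apply hy _ w.2
          obtain ⟨k, hk⟩ := (IsPGroup.iff_orderOf.mp T.2) ⟨w, hw⟩
          have h1 : orderOf (w : G) = s ^ k := by
            rw [← hk, Subgroup.orderOf_mk, Subgroup.orderOf_coe]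
          show (orderOf (w : G)).Coprime p
          rw [h1]
          exact Nat.Coprime.pow_left k ((Nat.coprime_primes hs.out hp).mpr hsp)
      intro c hc
      obtain ⟨g, rfl⟩ := QuotientGroup.mk'_surjective N c
      exact ⟨g, hLz hc, rfl⟩
    · -- the `p'`-part of `x` is nontrivial
      set u := x ^ p ^ a with hu
      have hum : u ^ m = 1 := by
        rw [hu, ← pow_mul, ← hord]; exact pow_orderOf_eq_one x
      have hu1 : u ≠ 1 := by
        intro h
        have h1 : orderOf x ∣ p ^ a := orderOf_dvd_of_pow_eq_one h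
        rw [hord] at h1
        have h2 : p ^ a * m ∣ p ^ a * 1 := by rwa [mul_one]
        have h3 := Nat.dvd_of_mul_dvd_mul_left (pow_pos hp.pos a) h2
        exact hm (Nat.dvd_one.mp h3)
      refine ⟨u, hu1, ?_⟩
      set A := Subgroup.zpowers u with hA
      have hcop : (Nat.card N).Coprime (Nat.card A) := by
        rw [hj, hA, Nat.card_zpowers]
        apply Nat.Coprime.pow_left
        exact Nat.Coprime.of_dvd_right (orderOf_dvd_of_pow_eq_one hum) ((Nat.Prime.coprime_iff_not_dvd hp).mpr hpm)
      intro c hc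
      obtain ⟨g, rfl⟩ := QuotientGroup.mk'_surjective N c
      rw [Subgroup.mem_centralizer_singleton_iff] at hc
      have hk : ∀ b ∈ A, g⁻¹ * b * g * b⁻¹ ∈ N := by
        intro b hb
        obtain ⟨i, rfl⟩ := Subgroup.mem_zpowers_iff.mp hb
        rw [← QuotientGroup.eq_one_iff]
        show π (g⁻¹ * u ^ i * g * (u ^ i)⁻¹) = 1
        have hc' : Commute (π g) (π x) := hc
        have h1 : Commute (π g) (π (u ^ i)) := by
          rw [hu, map_zpow, map_pow]
          exact (hc'.pow_right _).zpow_right _
        rw [map_mul, map_mul, map_mul, map_inv, map_inv, mul_assoc (π g)⁻¹, ← h1.eq]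
        group
      obtain ⟨n, hn, hgn⟩ := coprime_key N A (hnormN A) hcop (Or.inr inferInstance) g hk
      refine ⟨g * n, ?_, ?_⟩
      · show g * n ∈ Subgroup.centralizer ({u} : Set G)
        rw [Subgroup.mem_centralizer_singleton_iff]
        rw [Subgroup.mem_centralizer_iff] at hgn
        exact (hgn u (Subgroup.mem_zpowers u)).symm
      · rw [map_mul, hπN n hn, mul_one]
  obtain ⟨w, hw1, hle⟩ := hkey
  exact isNilpotent_of_le' hle (isNilpotent_map' π (hCN w hw1))

theorem isCNGroup_of_mulEquiv {A B : Type*} [Group A] [Group B] (e : A ≃* B) (hA : Cfsg.IsCNGroup A) :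
    Cfsg.IsCNGroup B := by
  intro b hb
  have h1 : e.symm b ≠ 1 := by
    intro h
    apply hb
    have := congrArg e h
    simpa using this
  have h2 := hA _ h1
  let f : ↥(Subgroup.centralizer ({b} : Set B)) →* ↥(Subgroup.centralizer ({e.symm b} : Set A)) :=
    { toFun := fun c => ⟨e.symm c.1, by
        have hc := c.2
        rw [Subgroup.mem_centralizer_singleton_iff] at hc ⊢
        rw [← map_mul, ← map_mul, hc]⟩
      map_one' := by
        apply Subtype.ext
        simp
      map_mul' := by
        intro c d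
        apply Subtype.ext
        simp }
  apply isNilpotent_of_injective' f _ h2
  intro c d hcd
  have h3 : e.symm c.1 = e.symm d.1 := congrArg Subtype.val hcd
  exact Subtype.ext (e.symm.injective h3)

/-- a nontrivial solvable normal subgroup contains a nontrivial normal `p`-subgroup of the whole group -/
theorem exists_normal_pgroup_le [Finite G] (D : Subgroup G) (hDn : D.Normal) (hDs : Group.IsSolvable D)
    (hDne : D ≠ ⊥) : ∃ (p : ℕ) (N : Subgroup G), p.Prime ∧ N ≤ D ∧ N.Normal ∧ N ≠ ⊥ ∧ IsPGroup p N := by
  induction hn : Nat.card D using Nat.strong_induction_on generalizing D with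
  | _ n ih =>
    by_cases hc : ⁅D, D⁆ = ⊥
    · have hcomm : ∀ x ∈ D, ∀ y ∈ D, x * y = y * x := by
        rw [Subgroup.commutator_eq_bot_iff_le_centralizer] at hc
        intro x hx y hy
        exact ((Subgroup.mem_centralizer_iff.mp (hc hx)) y hy).symm
      have h1 : Nat.card D ≠ 1 := fun h => hDne (Subgroup.card_eq_one.mp h)
      obtain ⟨p, hp, hdvd⟩ := Nat.exists_prime_and_dvd h1
      have := Fact.mk hp
      exact ⟨p, omegaP D hcomm p, hp, omegaP_le D hcomm p, omegaP_normal D hcomm p,
        omegaP_ne_bot D hcomm p hdvd, isPGroup_of_pow_eq_one (fun x hx => hx.2)⟩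
    · have hlt := commutator_lt_of_solvable hDs hDne
      have hnorm : (⁅D, D⁆ : Subgroup G).Normal := inferInstance
      obtain ⟨p, N, hp, hN1, hN2, hN3, hN4⟩ := ih (Nat.card ↥⁅D, D⁆)
        (hn ▸ Cfsg.Agent.Lib.Helper8.card_lt_of_lt hlt) ⁅D, D⁆ hnorm
        (Group.isSolvable_of_isSolvable_injective (Subgroup.inclusion_injective hlt.le)) hc rfl
      exact ⟨p, N, hp, hN1.trans hlt.le, hN2, hN3, hN4⟩

theorem cn_quot_all : ∀ (n : ℕ) (G : Type u) [Group G] [Finite G], Cfsg.IsCNGroup G → ∀ (H : Subgroup G)
    [H.Normal], Group.IsSolvable H → Nat.card H = n → Cfsg.IsCNGroup (G ⧸ H) := by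
  intro n
  induction n using Nat.strong_induction_on with
  | _ n ih =>
    intro G _ _ hCN H hHn hHs hcard
    by_cases hb : H = ⊥
    · subst hb
      exact isCNGroup_of_mulEquiv (QuotientGroup.quotientBot (G := G)).symm hCN
    · obtain ⟨p, N, hp, hNH, hNn, hNne, hNp⟩ := exists_normal_pgroup_le H hHn hHs hb
      have := Fact.mk hp
      have h1 := cn_quot_pgroup hCN N hNp hNne
      have h2 : (H.map (QuotientGroup.mk' N)).Normal :=
        Subgroup.Normal.map hHn _ (QuotientGroup.mk'_surjective N)
      have h3 : Group.IsSolvable (H.map (QuotientGroup.mk' N)) :=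
        Group.isSolvable_of_surjective ((QuotientGroup.mk' N).subgroupMap_surjective H)
      have h4 : Nat.card (H.map (QuotientGroup.mk' N)) < n := by
        have h5 := Subgroup.relIndex_ker (QuotientGroup.mk' N) (K := H)
        rw [QuotientGroup.ker_mk'] at h5
        rw [← h5, ← hcard, Cfsg.Agent.Lib.Helper4.card_eq_mul_relIndex hNH]
        have h6 : 1 < Nat.card N := by
          rcases Nat.lt_or_ge 1 (Nat.card N) with h | h
          · exact h
          · exfalso
            apply hNne
            apply Subgroup.card_eq_one.mp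
            have := Nat.card_pos (α := N)
            omega
        have h7 : 0 < N.relIndex H := by
          rw [h5]; exact Nat.card_pos
        nlinarith
      have h5 := ih _ h4 (G ⧸ N) h1 (H.map (QuotientGroup.mk' N)) h3 rfl
      exact isCNGroup_of_mulEquiv (QuotientGroup.quotientQuotientEquivQuotient N H hNH) h5

end Cfsg.Agent.Lib.Helper9
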